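import Cfsg.Agent.Lib.BSW.E8

/-!
# The exceptional characters when the centralizer of an involution is `GL₂(3)` modulo its core
-/

set_option autoImplicit false

namespace Cfsg.Lib.Six
open Cfsg Cfsg.Lib Cfsg.Lib.BSW

theorem six_arith {a c n o : ℤ} (hn : Odd n) (h0 : c ≠ 0) (ha : 3 < |a|) (hr : c - a ≠ 1)
    (e5 : n * (a - 3) ^ 2 = 96 * o ^ 2 * (a * (a - 1)))
    (e3 : n * (c - 4) ^ 2 = 192 * o ^ 2 * (c * (c - 1)))
    (e4 : n * (3 * c - 4 * a) ^ 2 = 192 * o ^ 2 * (a * c * (c - a))) :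
    (a = 11 ∧ n = 165 * o ^ 2) ∨ (c = -12 ∧ n = 117 * o ^ 2) := by
  have n0 : n ≠ 0 := by rintro rfl; simp at hn
  have h1 : n * c * (c - a - 1) * ((a - 9) * (c + 8) + 72) = 0 := by
    linear_combination (a * (c - a)) * e3 - (c - 1) * e4
  have h2 : (a - 9) * (c + 8) = -72 := by
    simp only [mul_eq_zero, n0, h0, false_or] at h1
    omega
  have h3 : (2 : ℤ) ^ 6 ∣ (a - 3) ^ 2 := by
    obtain ⟨k, hk⟩ := Int.even_mul_pred_self a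
    refine IsCoprime.dvd_of_dvd_mul_left (y := n) (Int.isCoprime_two_left.2 hn).pow_left ⟨3 * o ^ 2 * k, ?_⟩
    rw [e5, hk]; ring
  have h4 : (8 : ℤ) ∣ a - 3 := (Int.pow_dvd_pow_iff two_ne_zero).1 h3
  have h5 : a - 9 ∣ 72 := ⟨-(c + 8), by linear_combination h2⟩
  have h6 := Int.le_of_dvd (by norm_num) h5
  have h7 := Int.le_of_dvd (by norm_num) (neg_dvd.2 h5)
  obtain ⟨k, hk⟩ := h4
  obtain rfl : a = 8 * k + 3 := by omega
  have h8 : -9 ≤ k := by omega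
  have h9 : k ≤ 10 := by omega
  interval_cases k <;> simp at ha <;> omega

theorem sq_cases {x : ℤ} (h : x ^ 2 ≤ 3) : x = 0 ∨ x = 1 ∨ x = -1 := by
  have : x ≤ 1 := by nlinarith
  have : -1 ≤ x := by nlinarith
  omega

variable {G : Type*} [Group G] [Fintype G]

theorem common {U V : genChars G} (hU : ip U U = 2) (hV : ip V V = 2) (h : ip V U = 1) :
    ∃ X Y Z : genChars G, ip X X = 1 ∧ ip Y Y = 1 ∧ ip Z Z = 1 ∧ ip X Y = 0 ∧ ip X Z = 0 ∧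
      ip Y Z = 0 ∧ U = X + Y ∧ V = X + Z := by
  have key : ∀ X Y : genChars G, ip X X = 1 → ip Y Y = 1 → ip X Y = 0 → ip V X = 1 → ip V Y = 0 →
      U = X + Y → ∃ X Y Z : genChars G, ip X X = 1 ∧ ip Y Y = 1 ∧ ip Z Z = 1 ∧ ip X Y = 0 ∧
      ip X Z = 0 ∧ ip Y Z = 0 ∧ U = X + Y ∧ V = X + Z := fun X Y nX nY xy h1 h2 e =>
    ⟨X, Y, V - X, nX, nY, by rw [ip_sub_self, hV, h1, nX]; rfl, xy, by simp [ip_comm X V, h1, nX],
      by simp [ip_comm Y, h2, xy], e, by abel⟩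
  obtain ⟨X, Y, nX, nY, xy, e⟩ := exists_two_of_ip_eq_two hU
  have h1 := bessel_two V X Y nX nY xy
  rw [e, map_add] at h
  rcases (show ip V X = 1 ∨ ip V X = 0 by
    by_contra h2
    rcases (show 2 ≤ ip V X ∨ ip V X ≤ -1 by omega) with h3 | h3 <;> nlinarith) with h2 | h2
  · exact key X Y nX nY xy h2 (by omega) e
  · exact key Y X nY nX (by rw [ip_comm, xy]) (by omega) h2 (by rw [e, add_comm])

theorem orth3 {W X Y Z : genChars G} (nX : ip X X = 1) (nY : ip Y Y = 1) (nZ : ip Z Z = 1)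
    (xy : ip X Y = 0) (xz : ip X Z = 0) (yz : ip Y Z = 0) (h : ip W W ≤ 2) (h1 : ip W (X + Y) = 0)
    (h2 : ip W (X + Z) = 0) : ip W X = 0 ∧ ip W Y = 0 ∧ ip W Z = 0 := by
  have := bessel_three W X Y Z nX nY nZ xy xz yz
  rw [map_add] at h1 h2
  rw [show ip W Y = -ip W X by omega, show ip W Z = -ip W X by omega] at *
  have : ip W X = 0 := by
    by_contra h3
    rcases (show 1 ≤ ip W X ∨ ip W X ≤ -1 by omega) with h3 | h3 <;> nlinarith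
  omega

section
variable {W X Y Z : genChars G} (nX : ip X X = 1) (nY : ip Y Y = 1) (nZ : ip Z Z = 1)
  (xy : ip X Y = 0) (xz : ip X Z = 0) (yz : ip Y Z = 0) (dY : gcDeg X + gcDeg Y = 0)
  (dZ : gcDeg X + gcDeg Z = 0)
include nX nY nZ xy xz yz dY dZ

theorem lat1 (h : ip W W = 2) (h1 : ip W (X + Y) = 1) (h2 : ip W (X + Z) = 1) (d : gcDeg W = -1) :
    ip W X = 1 ∧ ip W Y = 0 ∧ ip W Z = 0 := by
  have h3 := bessel_three W X Y Z nX nY nZ xy xz yz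
  have := sq_nonneg (ip W Y)
  have := sq_nonneg (ip W Z)
  rw [map_add] at h1 h2
  rcases sq_cases (x := ip W X) (by omega) with h4 | h4 | h4
  · have := congrArg gcDeg (eq_zero_of_ip_self (W - (Y + Z)) (by
      simp only [ip_sub_self, map_add, AddMonoidHom.add_apply, nY, nZ, yz, ip_comm Z Y]; omega))
    rw [gcDeg_sub, gcDeg_add, gcDeg_zero'] at this
    omega
  · omega
  · rw [show ip W Y = 2 by omega, h4] at h3; omega

theorem lat2 (h : ip W W = 3) (h1 : ip W (X + Y) = 0) (h2 : ip W (X + Z) = 0) (d : gcDeg W = 0) :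
    ip W X = 0 ∧ ip W Y = 0 ∧ ip W Z = 0 := by
  have h3 := bessel_three W X Y Z nX nY nZ xy xz yz
  have dX := gcDeg_ne_zero nX
  rw [map_add] at h1 h2
  have h4 := fun h => congrArg gcDeg (eq_zero_of_ip_self (W - (X - Y - Z)) h)
  have h5 := fun h => congrArg gcDeg (eq_zero_of_ip_self (W - (Y + Z - X)) h)
  simp only [map_add, map_sub, AddMonoidHom.add_apply, AddMonoidHom.sub_apply, nX, nY, nZ,
    yz, xy, xz, ip_comm Z Y, ip_comm Y X, ip_comm Z X, gcDeg_sub, gcDeg_add, gcDeg_zero',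
    ip_comm X W, ip_comm Y W, ip_comm Z W] at h4 h5
  have := sq_nonneg (ip W Y)
  have := sq_nonneg (ip W Z)
  rcases sq_cases (x := ip W X) (by omega) with h | h | h
  · omega
  · have := h4 (by omega); omega
  · have := h5 (by omega); omega

end

theorem lattice {D0 D1 D2 D3 D4 : genChars G} (h00 : ip D0 D0 = 2) (h11 : ip D1 D1 = 2)
    (h22 : ip D2 D2 = 3) (h33 : ip D3 D3 = 3) (h44 : ip D4 D4 = 3) (h10 : ip D1 D0 = 1)
    (h20 : ip D2 D0 = 0) (h21 : ip D2 D1 = 0) (h30 : ip D3 D0 = 0) (h31 : ip D3 D1 = 0)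
    (h32 : ip D3 D2 = 1) (h40 : ip D4 D0 = 1) (h41 : ip D4 D1 = 1) (h24 : ip D2 D4 = 1)
    (h34 : ip D3 D4 = -1) (o0 : ip (gcOne G) D0 = 0) (o1 : ip (gcOne G) D1 = 0)
    (o2 : ip (gcOne G) D2 = 1) (o3 : ip (gcOne G) D3 = 0) (o4 : ip (gcOne G) D4 = 1)
    (d0 : gcDeg D0 = 0) (d1 : gcDeg D1 = 0) (d3 : gcDeg D3 = 0) (d4 : gcDeg D4 = 0) :
    ∃ X A P C R : genChars G, (∀ T ∈ [(X, 2), (A, 3), (P, 3), (C, -4), (R, 1)], ip T.1 T.1 = 1 ∧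
      ip (gcOne G) T.1 = 0 ∧ ip (2 • D0 + 2 • D1 + 3 • D2 + D3 - 2 • D4) T.1 = (T.2 : ℤ)) ∧
      D4 = gcOne G + X - A ∧ D2 = gcOne G + P - C ∧ D3 = A + R - C := by
  have n1 := ip_one_one (G := G)
  have e1 := gcDeg_one (G := G)
  generalize gcOne G = U at *
  obtain ⟨X, Y, Z, nX, nY, nZ, xy, xz, yz, rfl, rfl⟩ := common h00 h11 h10
  have k := fun {W} => orth3 (W := W) nX nY nZ xy xz yz
  obtain ⟨x1, y1, z1⟩ := k (n1.le.trans one_le_two) o0 o1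
  rw [gcDeg_add] at d0 d1
  obtain ⟨x3, y3, z3⟩ := lat2 nX nY nZ xy xz yz d0 d1 h33 h30 h31 d3
  obtain ⟨x4, y4, z4⟩ := lat1 (W := D4 - U) nX nY nZ xy xz yz d0 d1
    (by rw [ip_sub_self, h44, ip_comm, o4, n1]; rfl) (by simp [h40, o0]) (by simp [h41, o1])
    (by rw [gcDeg_sub, d4, e1]; rfl)
  have n2 : ip (D2 - U) (D2 - U) = 2 := by rw [ip_sub_self, h22, ip_comm, o2, n1]; rfl
  obtain ⟨x2, y2, z2⟩ := k n2.le (by simp [h20, o0]) (by simp [h21, o1])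
  clear k h00 h11 h10 h20 h21 h30 h31 h40 h41 o0 o1 d0 d1 d3 d4 h22
  obtain ⟨A, rfl⟩ : ∃ A, D4 = U + X - A := ⟨U + X - D4, by abel⟩
  obtain ⟨E2, rfl⟩ : ∃ E, D2 = U + E := ⟨D2 - U, by abel⟩
  obtain ⟨E3, rfl⟩ : ∃ E, D3 = A + E := ⟨D3 - A, by abel⟩
  simp only [map_add, map_sub, AddMonoidHom.add_apply, AddMonoidHom.sub_apply, nX, xy, xz, n1, x1, y1,
    z1, ip_comm X U, ip_comm X A, ip_comm A U, ip_comm E2 U, ip_comm E3 U, ip_comm A E2,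
    ip_comm A E3] at h44 h33 h32 h24 h34 o2 o3 o4 x2 y2 z2 x3 y3 z3 x4 y4 z4 n2
  obtain ⟨a1, ax, ay, az, nA, b1, b2, b3, b4, b5, b6, b7, b8, b9, b10, b11, b12, b13⟩ :
      ip U A = 0 ∧ ip A X = 0 ∧ ip A Y = 0 ∧ ip A Z = 0 ∧ ip A A = 1 ∧ ip E2 E2 = 2 ∧ ip E3 E3 = 2 ∧
      ip E3 E2 = 1 ∧ ip U E2 = 0 ∧ ip U E3 = 0 ∧ ip E2 X = 0 ∧ ip E3 X = 0 ∧ ip E2 Y = 0 ∧ ip E3 Y = 0 ∧
      ip E2 Z = 0 ∧ ip E3 Z = 0 ∧ ip E2 A = 0 ∧ ip E3 A = 0 := by omega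
  clear h44 h33 h32 h24 h34 o2 o3 o4 x2 y2 z2 x3 y3 z3 x4 y4 z4 n2
  obtain ⟨C, P, R, nC, nP, nR, cp, cr, pr, rfl, rfl⟩ := common b1 b2 b3
  have k := fun {W} (h : ip W W = 1) (h1 : ip (C + P) W = 0) (h2 : ip (C + R) W = 0) =>
    orth3 nC nP nR cp cr pr (h.le.trans one_le_two) ((ip_comm _ _).trans h1) ((ip_comm _ _).trans h2)
  obtain ⟨c1, p1, r1⟩ := orth3 nC nP nR cp cr pr (n1.le.trans one_le_two) b4 b5
  obtain ⟨cx, px, rx⟩ := k nX b6 b7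
  obtain ⟨cy, py, ry⟩ := k nY b8 b9
  obtain ⟨cz, pz, rz⟩ := k nZ b10 b11
  obtain ⟨ca, pa, ra⟩ := k nA b12 b13
  refine ⟨X, A, P, -C, R, ?_, rfl, by abel, by abel⟩
  simp only [List.forall_mem_cons, map_add, map_sub, map_nsmul, map_neg, AddMonoidHom.add_apply,
    AddMonoidHom.sub_apply, AddMonoidHom.nsmul_apply, AddMonoidHom.neg_apply, ip_comm Y X, ip_comm Z X,
    ip_comm X A, ip_comm Y A, ip_comm Z A, ip_comm C X, ip_comm P X, ip_comm R X, ip_comm C A,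
    ip_comm P A, ip_comm R A, ip_comm P C, ip_comm R C, ip_comm R P, nX, nA, nP, nC, nR, x1, c1, p1, r1,
    xy, xz, cx, px, rx, cy, py, ry, cz, pz, rz, ca, pa, ra, cp, cr, pr, ax, ay, az, a1]
  simp

end Cfsg.Lib.Six
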