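import Cfsg.Agent.Lib.Six.Model
import Cfsg.Agent.Lib.Six.Lat
import Cfsg.Agent.Lib.FT.GW.OrdInd

/-!
# The order of a simple group whose involution centralizer is `GL₂(3)` modulo its core
-/

set_option autoImplicit false

namespace Cfsg.Lib.Six
open Subgroup Cfsg Cfsg.Lib Cfsg.Lib.FT Cfsg.Lib.GW Cfsg.Lib.BSW Cfsg.Lib.GW.Ord Finset M48
open scoped ComplexConjugate

variable {G : Type*} [Group G]

/-- `π` maps `C(t)` onto `GL₂(3)`, with kernel of odd order -/
structure GC (t : G) (π : C1[t] →* M48) : Prop where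
  ht : orderOf t = 2
  one : OneClass G
  surj : Function.Surjective π
  odd : Odd (Nat.card π.ker)

namespace GC
variable {t : G} {π : C1[t] →* M48} (h : GC t π)
include h

theorem tt : t * t = 1 := mul_self_of_orderOf_two h.ht

theorem ne_one {u : C1[t]} (hu : orderOf u = 2) : π u ≠ 1 := fun e => not_mem_of_odd h.odd hu e

theorem pit : π (selfC t) = z := ((central _).1 fun g => by
  obtain ⟨g, rfl⟩ := h.surj g
  rw [← map_mul, selfC_central, map_mul]).resolve_left (h.ne_one (by rw [← orderOf_coe]; exact h.ht))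

theorem root {i : Fin 5} {a : C1[t]} (ha : Th i (π a) ≠ 0) : t ∈ zpowers (a : G) := by
  obtain ⟨k, hk⟩ : ∃ k, π a ^ k = z := by
    rcases th_supp i _ (fun e => ha (by rw [Th, e, map_zero])) with e | e | e | e
    exacts [⟨1, by rw [pow_one, e]⟩, ⟨_, e⟩, ⟨_, e⟩, ⟨_, e⟩]
  have h1 : selfC t * a ^ k ∈ π.ker := by
    rw [MonoidHom.mem_ker, map_mul, map_pow, hk, ← h.pit, ← map_mul,
      show selfC t * selfC t = 1 from Subtype.ext h.tt, map_one]
  have h2 := odd_orderOf h.odd h1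
  rw [← orderOf_coe] at h2
  have h3 : (t * (t * a ^ k)) ^ orderOf (t * (a : G) ^ k) = t := by
    obtain ⟨m, hm⟩ := h2
    rw [(show Commute t (t * a ^ k) from (mem_c1.1 (selfC t * a ^ k).2).symm).mul_pow,
      pow_orderOf_eq_one, mul_one]
    erw [hm]
    rw [pow_succ, pow_mul, sq, h.tt, one_pow, one_mul]
  rw [← mul_assoc, h.tt, one_mul] at h3
  exact (congrArg (· ∈ zpowers (a : G)) h3).mp (pow_mem (pow_mem (mem_zpowers _) _) _)

variable [Fintype G]

theorem ind_apply {i j : Fin 5} {a : C1[t]} (ha : Th i (π a) ≠ 0) :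
    indFun _ (Th j ∘ π) a = Th j (π a) :=
  indFun_eq_of_ti _ ((isGen_Th j).comp π).isClassFunction a fun x hx h2 => by
    obtain ⟨k, hk⟩ := mem_zpowers_iff.1 (h.root h2)
    have h3 : x * t * x⁻¹ ∈ zpowers (a : G) := by
      refine mem_zpowers_iff.2 ⟨k, ?_⟩
      refine Eq.trans ?_ (congrArg (fun y => x * y * x⁻¹) hk)
      rw [← conj_zpow]; congr 1; simp [mul_assoc]
    have h4 := (orderOf_conj' x t).trans h.ht
    rw [mem_c1, ← mul_inv_eq_iff_eq_mul]
    exact eq_of_mem_zpowers_of_mul_self h3 (h.root ha) (ne_one_of_orderOf_two h4)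
      (ne_one_of_orderOf_two h.ht) (mul_self_of_orderOf_two h4) h.tt

variable [Fintype C1[t]]

theorem invPairs_eq {a : C1[t]} (ha : t ∈ zpowers (a : G)) : invPairs (a : G) = invPairs a := by
  classical
  symm
  refine card_bij (fun u _ => (u : G)) (fun u hu => ?_) (fun _ _ _ _ e => Subtype.ext e)
    fun u hu => ?_
  · simp only [mem_filter, mem_univ, true_and, ← orderOf_coe] at hu ⊢
    exact hu
  · simp only [mem_filter, mem_univ, true_and] at hu
    have h5 : u * a * u⁻¹ = (a : G)⁻¹ := by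
      rw [inv_eq_of_orderOf_two hu.1, eq_inv_iff_mul_eq_one, mul_assoc,
        mul_self_of_orderOf_two hu.2]
    obtain ⟨k, hk⟩ := mem_zpowers_iff.1 ha
    have h6 : u ∈ C1[t] := by
      rw [mem_c1, ← mul_inv_eq_iff_eq_mul, ← hk, ← conj_zpow, h5, inv_zpow, hk,
        inv_eq_of_orderOf_two h.ht]
    refine ⟨⟨u, h6⟩, ?_, rfl⟩
    simp only [mem_filter, mem_univ, true_and, ← orderOf_coe]
    exact hu

omit [Fintype G] in
open Classical in
theorem fiber : ∃ e o : ℕ, (∀ g : M48 → ℂ, ∑ u : C1[t], (if orderOf u = 2 then 1 else 0) * g (π u) =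
    e * g z + o * ∑ m, if NC m then g m else 0) ∧ (Function.Injective π → o = 1) := by
  let f : M48 → ℕ := fun m => (univ.filter fun u : C1[t] => π u = m ∧ orderOf u = 2).card
  refine ⟨f z, f b, fun g => ?_, fun hi => ?_⟩
  · rw [← sum_fiberwise _ π, mul_sum, ← sum_ite_eq_of_mem' univ z (fun m => (f m : ℂ) * g m)
      (mem_univ _), ← sum_add_distrib]
    refine sum_congr rfl fun m _ => ?_
    rw [sum_congr rfl (g := fun u => if orderOf u = 2 then g m else 0) fun u hu => by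
      rw [(mem_filter.1 hu).2]; simp, ← sum_filter, filter_filter, sum_const, nsmul_eq_mul]
    change (f m : ℂ) * _ = _
    by_cases h1 : m = z
    · simp [h1, NC]
    by_cases h2 : NC m
    · obtain ⟨k, rfl⟩ := nc_conj m h2
      obtain ⟨k, rfl⟩ := h.surj k
      rw [if_neg h1, if_pos h2, zero_add]
      congr 2
      exact (card_equiv (MulAut.conj k).toEquiv fun u => by simp [orderOf_conj']).symm
    · rw [if_neg h1, if_neg h2, show f m = 0 from card_eq_zero.2 (filter_eq_empty_iff.2 ?_)]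
      · simp
      rintro u - ⟨rfl, h3⟩
      exact h2 ⟨by rw [← map_mul, mul_self_of_orderOf_two h3, map_one], h.ne_one h3, h1⟩
  · obtain ⟨u, hu⟩ := h.surj b
    refine card_eq_one.2 ⟨u, eq_singleton_iff_unique_mem.2 ⟨mem_filter.2 ⟨mem_univ _, hu, ?_⟩,
      fun v hv => hi ((mem_filter.1 hv).2.1.trans hu.symm)⟩⟩
    rw [← orderOf_injective π hi, hu]
    exact orderOf_two_of_mul_self nc_b.2.1 nc_b.1

theorem data [IsSimpleGroup G] (hG : commutator G = ⊤) (hn : Odd C1[t].index) :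
    ∃ (T : genChars G) (o : ℕ), ip T T = 1 ∧ ip T (gcOne G) = 0 ∧ pb0 2 (T : G → ℂ) = T ∧
      (Function.Injective π → o = 1) ∧
      (gcDeg T = 10 ∧ C1[t].index = 165 * o ^ 2 ∨ gcDeg T = -12 ∧ C1[t].index = 117 * o ^ 2) := by
  classical
  let D : Fin 5 → genChars G := fun i => ⟨indFun _ (Th i ∘ π), ((isGen_Th i).comp π).ind⟩
  have hD : ∀ i j, ip (D i) (D j) = gram i j := fun i j => by
    rw [ip_eq_iff]
    refine (classInner_indFun_indFun _ _ _ fun a ha => h.ind_apply ha).trans ?_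
    exact (classInner_comp_surjective π h.surj (Th i) (Th j)).trans (inner_Th i j)
  have hD1 : ∀ i, ip (gcOne G) (D i) = ![0, 0, 1, 0, 1] i := fun i => by
    rw [ip_comm, ip_eq_iff]
    exact (classInner_indFun_left _ _ isClassFunction_one).trans
      ((classInner_comp_surjective π h.surj (Th i) 1).trans (inner_one i))
  have hd : ∀ i, gcDeg (D i) = 0 := fun i => by
    have h1 := gcDeg_spec (D i)
    have h2 : Th i (π 1) = 0 := by_contra fun e => ne_one_of_orderOf_two h.ht (by simpa using h.root e)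
    rw [show (D i : G → ℂ) 1 = 0 from (indFun_one _ _).trans (by rw [Function.comp, h2, mul_zero])] at h1
    exact_mod_cast h1.symm
  obtain ⟨e, o, hf, ho⟩ := h.fiber
  have hΓ : ∀ i, Γ G (D i) = C1[t].index * (o ^ 2 * (![0, 0, 192, 192, 96] i : ℤ)) := fun i => by
    change ∑ x, (invPairs x : ℂ) * indFun _ _ x = _
    simp only [mul_comm (invPairs _ : ℂ), sum_indFun_mul _ _ isClassFunction_invPairs]
    congr 1
    rw [sum_congr rfl (g := fun a => (invPairs a : ℂ) * (Th i ∘ π) a) fun a _ => by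
      by_cases h0 : Th i (π a) = 0
      · simp [h0]
      · rw [h.invPairs_eq (h.root h0), mul_comm], sum_invPairs_mul]
    simp only [Function.comp, map_mul, fun v => hf fun m => Th i (m * v)]
    rw [hf fun v => e * Th i (z * v) + o * ∑ m, if NC m then Th i (m * v) else 0, ← pairs i, sq,
      mul_assoc, sum_eq_zero fun m _ => ?_]
    · simp only [Th, th_zz, map_zero, mul_zero, add_zero, zero_add]
      congr 1
      rw [mul_sum]
      refine sum_congr rfl fun m _ => ?_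
      split_ifs with h1
      · rw [(th_nc i m h1).2, map_zero, mul_zero, zero_add]
      · simp
    · split_ifs with h1
      · rw [Th, (th_nc i m h1).1, map_zero]
      · rfl
  obtain ⟨X, A, P, C, R, hT, e4, e2, e3⟩ := lattice (hD 0 0) (hD 1 1) (hD 2 2) (hD 3 3) (hD 4 4) (hD 1 0)
    (hD 2 0) (hD 2 1) (hD 3 0) (hD 3 1) (hD 3 2) (hD 4 0) (hD 4 1) (hD 2 4) (hD 3 4) (hD1 0) (hD1 1)
    (hD1 2) (hD1 3) (hD1 4) (hd 0) (hd 1) (hd 3) (hd 4)
  have key : ∀ T ∈ [(X, (2 : ℤ)), (A, 3), (P, 3), (C, -4), (R, 1)], T.2 ≠ 0 → ip T.1 T.1 = 1 ∧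
      ip T.1 (gcOne G) = 0 ∧ pb0 2 (T.1 : G → ℂ) = T.1 ∧ |T.2| < |gcDeg T.1| ∧
      Γ G T.1 = (C1[t].index : ℂ) ^ 2 * ((T.2 ^ 2 / gcDeg T.1 : ℚ) : ℂ) := fun T hT' h0 => by
    obtain ⟨h1, h2, h3⟩ := hT T hT'
    rw [ip_comm] at h2
    have h4 : pb0 2 (T.1 : G → ℂ) t = T.2 := by
      rw [← h3, ip_comm, ip_spec, show ((2 • D 0 + 2 • D 1 + 3 • D 2 + D 3 - 2 • D 4 : genChars G) :
        G → ℂ) = indFun _ (clsFun z ∘ π) from by
          rw [← comb]
          change _ = indLin _ (2 • Th 0 ∘ π + 2 • Th 1 ∘ π + 3 • Th 2 ∘ π + Th 3 ∘ π - 2 • Th 4 ∘ π)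
          simp only [map_add, map_sub, map_nsmul]; rfl,
        classInner_indFun_right _ _ (gc_class _), ← h.pit, ← R2.pb0_clsFun_quot (p := 2) π h.surj
          h.odd.not_two_dvd_nat inB0, classInner_pb0_clsFun ((gc_class _).res _)]
      simpa [selfC] using pb0_eq_pb0_centralizer (p := 2) (gc_class T.1) (k := 1) (u := t) (w := 1)
        (by rw [pow_one, sq, h.tt]) (by simp) (Commute.one_right t)
    have h5 : pb0 2 (T.1 : G → ℂ) = T.1 := by
      obtain ⟨χ, hχ, e⟩ := exists_irr_of_ip_eq_one h1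
      have h6 : ∀ θ : G → ℂ, pb0 2 (-θ) = -pb0 2 θ := fun θ => by
        rw [← neg_one_smul ℂ, pb0, blockProj_smul, neg_one_smul]; rfl
      by_cases h7 : InB0 2 χ
      · rcases e with e | e <;> simp only [e, h6, pb0_irr_of_inB0 hχ h7]
      · refine absurd (Int.cast_eq_zero.1 (h4.symm.trans ?_)) h0
        rcases e with e | e <;> simp [e, h6, pb0_irr_of_not_inB0 hχ h7]
    rw [h5] at h4
    exact ⟨h1, h2, h5, abs_lt_of_ip_one hG h1 h2 (ne_one_of_orderOf_two h.ht) h4,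
      Γ_eq h.one h.ht h1 h4⟩
  obtain ⟨x1, x2, x3, x4, x5⟩ := key (X, 2) (by simp) (by simp)
  obtain ⟨a1, -, -, a4, a5⟩ := key (A, 3) (by simp) (by simp)
  obtain ⟨p1, -, -, -, p5⟩ := key (P, 3) (by simp) (by simp)
  obtain ⟨c1, c2, c3, -, c5⟩ := key (C, -4) (by simp) (by simp)
  obtain ⟨r1, -, -, r4, r5⟩ := key (R, 1) (by simp) (by simp)
  have g1 := Γ_eq h.one h.ht (ip_one_one (G := G)) (n := 1) (by simp)
  have g2 := hΓ 2
  have g3 := hΓ 3
  have g4 := hΓ 4
  have d2 := hd 2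
  have d3 := hd 3
  have d4 := hd 4
  rw [e2] at g2 d2
  rw [e3] at g3 d3
  rw [e4] at g4 d4
  rw [map_sub, map_add] at g2 g3 g4
  rw [gcDeg_sub, gcDeg_add] at d2 d3 d4
  rw [gcDeg_one] at d2 d4 g1
  simp only at x1 x4 x5 a1 a4 a5 p1 p5 c1 c5 r1 r4 r5
  rw [show gcDeg X = gcDeg A - 1 by omega] at x5
  rw [show gcDeg P = gcDeg C - 1 by omega] at p5
  rw [show gcDeg R = gcDeg C - gcDeg A by omega] at r5 r4
  have n0 : (C1[t].index : ℂ) ≠ 0 := Nat.cast_ne_zero.2 index_ne_zero_of_finite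
  have z1 : (gcDeg A : ℂ) ≠ 0 := Int.cast_ne_zero.2 (gcDeg_ne_zero a1)
  have z2 : (gcDeg C : ℂ) ≠ 0 := Int.cast_ne_zero.2 (gcDeg_ne_zero c1)
  have z3 : (gcDeg A : ℂ) - 1 ≠ 0 := by have := gcDeg_ne_zero x1; norm_cast; omega
  have z4 : (gcDeg C : ℂ) - 1 ≠ 0 := by have := gcDeg_ne_zero p1; norm_cast; omega
  have z5 : (gcDeg C : ℂ) - gcDeg A ≠ 0 := by have := gcDeg_ne_zero r1; norm_cast; omega
  rw [g1, p5, c5] at g2
  rw [a5, r5, c5] at g3
  rw [g1, x5, a5] at g4
  push_cast [Matrix.cons_val] at g2 g3 g4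
  field_simp at g2 g3 g4
  rcases six_arith (a := gcDeg A) (c := gcDeg C) (n := C1[t].index) (o := o) hn.natCast
    (gcDeg_ne_zero c1) a4 (fun e => by simp [e] at r4) (by
      apply Int.cast_injective (α := ℂ); push_cast; linear_combination g4) (by
      apply Int.cast_injective (α := ℂ); push_cast; linear_combination g2) (by
      apply Int.cast_injective (α := ℂ); push_cast; linear_combination g3) with ⟨k1, k2⟩ | ⟨k1, k2⟩
  · exact ⟨X, o, x1, x2, x3, ho, Or.inl ⟨by omega, by exact_mod_cast k2⟩⟩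
  · exact ⟨C, o, c1, c2, c3, ho, Or.inr ⟨k1, by exact_mod_cast k2⟩⟩

end GC

end Cfsg.Lib.Six
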